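import Cfsg.Agent.Brauer.HomocyclicTwo
import Cfsg.Agent.BrauerPairs.AbelianLocal
import Cfsg.Agent.Block.FirstMain

/-!
# The inertial quotient of a 2-block with homocyclic defect group of rank two
-/

set_option linter.style.haveILetI false

namespace Cfsg.Agent.BlockCover

open Cfsg

variable {G : Type*} [Group G] [Finite G]

/-- A subgroup of odd index over the centralizer, normalizing a homocyclic 2-group of rank two,
induces at most a fixed-point-free automorphism of order three. -/
theorem homocyclic_two_action (P : Subgroup G) {m : ℕ} (hm : 1 ≤ m)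
    (ψ : P ≃* Multiplicative (ZMod (2 ^ m) × ZMod (2 ^ m))) (T : Subgroup G)
    (hTN : T ≤ Subgroup.normalizer (P : Set G))
    (hodd : Odd ((Subgroup.centralizer (P : Set G)).relIndex T)) :
    (Subgroup.centralizer (P : Set G)).relIndex T ∣ 3 ∧
      (∀ g ∈ T, ∀ h ∈ T, g * h * g⁻¹ * h⁻¹ ∈ Subgroup.centralizer (P : Set G)) ∧
      ∀ g ∈ T, ∀ x ∈ P, x ≠ 1 → g * x * g⁻¹ = x → g ∈ Subgroup.centralizer (P : Set G) := by
  classical
  set C := Subgroup.centralizer (P : Set G) with hC
  have hcomm : ∀ a b : P, a * b = b * a := fun a b =>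
    ψ.injective (by rw [map_mul, map_mul, mul_comm])
  have hexp : ∀ x ∈ P, x ^ 2 ^ m = 1 := by
    intro x hx
    have h : (ψ ⟨x, hx⟩) ^ 2 ^ m = 1 := by
      apply Multiplicative.toAdd.injective
      simp only [toAdd_pow, toAdd_one]
      ext <;> simp only [Prod.smul_fst, Prod.smul_snd, Prod.fst_zero, Prod.snd_zero] <;>
        rw [nsmul_eq_mul] <;> exact mul_eq_zero_of_left (ZMod.natCast_self _) _
    rw [← map_pow, map_eq_one_iff ψ ψ.injective] at h
    exact congrArg Subtype.val h
  let X := {z : G // z ∈ P ∧ z ^ 2 = 1 ∧ z ≠ 1}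
  have hX : Nat.card X ≤ 3 := by
    obtain ⟨k, rfl⟩ : ∃ k, m = k + 1 := ⟨m - 1, by omega⟩
    let h : ZMod (2 ^ (k + 1)) := (2 ^ k : ℕ)
    let S : Finset (ZMod (2 ^ (k + 1)) × ZMod (2 ^ (k + 1))) := {(0, h), (h, 0), (h, h)}
    have key : ∀ z : X, (ψ ⟨z.1, z.2.1⟩).toAdd ∈ S := by
      intro z
      set w := ψ ⟨z.1, z.2.1⟩ with hw
      have h2 : w ^ 2 = 1 := by
        rw [hw, ← map_pow, map_eq_one_iff ψ ψ.injective]; exact Subtype.ext z.2.2.1
      have hne : w ≠ 1 := by
        rw [hw, Ne, map_eq_one_iff ψ ψ.injective]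
        exact fun h => z.2.2.2 (congrArg Subtype.val h)
      have hadd : w.toAdd + w.toAdd = 0 := by
        have := congrArg Multiplicative.toAdd h2
        rwa [toAdd_pow, toAdd_one, two_nsmul] at this
      have hne' : w.toAdd ≠ 0 := fun h => hne (Multiplicative.toAdd.injective h)
      rcases Brauer.zmod_two_torsion k w.toAdd.1 (congrArg Prod.fst hadd) with a | a <;>
        rcases Brauer.zmod_two_torsion k w.toAdd.2 (congrArg Prod.snd hadd) with b | b
      · exact absurd (Prod.ext a b) hne'
      all_goals simp [S, h, Prod.ext_iff, a, b]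
    have hf : Function.Injective fun z : X => (⟨_, key z⟩ : {s // s ∈ S}) := by
      intro a b hab
      have := Multiplicative.toAdd.injective (congrArg Subtype.val hab)
      exact Subtype.ext (congrArg Subtype.val (ψ.injective this) :)
    refine (Nat.card_le_card_of_injective _ hf).trans ?_
    rw [Nat.card_eq_finsetCard]
    exact Finset.card_le_three
  have hmem : ∀ n ∈ T, ∀ z : X, n * z.1 * n⁻¹ ∈ P ∧ (n * z.1 * n⁻¹) ^ 2 = 1 ∧ n * z.1 * n⁻¹ ≠ 1 :=
    fun n hn z => ⟨(Subgroup.mem_normalizer_iff.mp (hTN hn) _).mp z.2.1,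
      by rw [conj_pow, z.2.2.1]; simp, fun h => z.2.2.2 (conj_eq_one_iff.mp h)⟩
  letI act : MulAction T X :=
    { smul := fun n z => ⟨(n : G) * z.1 * (n : G)⁻¹, hmem n n.2 z⟩
      one_smul := fun z => Subtype.ext (by
        change ((1 : T) : G) * z.1 * ((1 : T) : G)⁻¹ = z.1
        simp)
      mul_smul := fun a b z => Subtype.ext (by
        change ((a * b : T) : G) * z.1 * ((a * b : T) : G)⁻¹ =
          (a : G) * ((b : G) * z.1 * (b : G)⁻¹) * (a : G)⁻¹
        simp [mul_assoc]) }
  set φ := MulAction.toPermHom T X with hφ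
  have hφapp : ∀ (n : T) (z : X), ((φ n) z).1 = (n : G) * z.1 * (n : G)⁻¹ := fun n z => rfl
  set r := C.relIndex T with hr
  have hker : φ.ker = C.subgroupOf T := by
    ext n
    rw [MonoidHom.mem_ker, Subgroup.mem_subgroupOf]
    constructor
    · intro h1
      have hfix : ∀ z ∈ P, z ^ 2 = 1 → (n : G) * z * (n : G)⁻¹ = z := by
        intro z hz hz2
        by_cases h0 : z = 1
        · simp [h0]
        · exact (hφapp n ⟨z, hz, hz2, h0⟩).symm.trans (by rw [h1]; rfl)
      haveI : (C.subgroupOf T).Normal :=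
        Subgroup.normal_subgroupOf_of_le_normalizer
          (hTN.trans (BrauerPairs.normalizer_le_normalizer_centralizer P))
      have hpow : ((n ^ r : T) : G) ∈ C :=
        Subgroup.mem_subgroupOf.1 (Subgroup.pow_index_mem (C.subgroupOf T) n)
      letI : CommGroup P := { (inferInstance : Group P) with mul_comm := hcomm }
      let α : P →* P :=
        { toFun := fun x => ⟨(n : G) * x * (n : G)⁻¹,
            (Subgroup.mem_normalizer_iff.mp (hTN n.2) _).mp x.2⟩
          map_one' := Subtype.ext (by simp)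
          map_mul' := fun a b => Subtype.ext (by simp [mul_assoc]) }
      have hit : ∀ k, ∀ x : P, ((α^[k]) x : G) = (n : G) ^ k * x * ((n : G) ^ k)⁻¹ := by
        intro k
        induction k with
        | zero => simp
        | succ k ih =>
          intro x
          rw [Function.iterate_succ_apply']
          change (n : G) * ((α^[k]) x : G) * (n : G)⁻¹ = _
          rw [ih, pow_succ']
          simp [mul_assoc]
      have hα := Brauer.aut_eq_self_of_fix_involutions (A := P) (m := m)
        (fun x => Subtype.ext (hexp x x.2)) α hodd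
        (fun x => Subtype.ext (by
          rw [hit, ← SubgroupClass.coe_pow]
          have h2 := Subgroup.mem_centralizer_iff.1 hpow (x : G) x.2
          rw [← h2, mul_inv_cancel_right]))
        (fun x hx => Subtype.ext (hfix x x.2 (congrArg Subtype.val hx)))
      refine Subgroup.mem_centralizer_iff.2 fun y hy => ?_
      exact (mul_inv_eq_iff_eq_mul.mp (congrArg Subtype.val (hα ⟨y, hy⟩))).symm
    · intro h1
      refine Equiv.ext fun z => Subtype.ext ?_
      rw [hφapp, ← Subgroup.mem_centralizer_iff.1 h1 z.1 z.2.1, mul_inv_cancel_right]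
      rfl
  have hd6 : r ∣ 6 := by
    have h := Subgroup.card_subgroup_dvd_card φ.range
    rw [← Subgroup.index_ker, hker, Nat.card_perm] at h
    exact h.trans (by
      have : Nat.card X = 0 ∨ Nat.card X = 1 ∨ Nat.card X = 2 ∨ Nat.card X = 3 := by omega
      rcases this with h | h | h | h <;> rw [h] <;> decide)
  have h3 : r ∣ 3 :=
    (Nat.coprime_two_right.2 hodd).dvd_of_dvd_mul_right (show r ∣ 3 * 2 by simpa using hd6)
  have hrange : Nat.card φ.range ∣ 3 := by
    rwa [← Subgroup.index_ker, hker]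
  refine ⟨h3, fun g hg h hh => ?_, fun g hg x hx hx1 hgx => ?_⟩
  · have hab : φ ⟨g, hg⟩ * φ ⟨h, hh⟩ = φ ⟨h, hh⟩ * φ ⟨g, hg⟩ := by
      haveI : IsCyclic φ.range := by
        rcases (Nat.dvd_prime Nat.prime_three).1 hrange with h1 | h1
        · haveI : Subsingleton φ.range := (Nat.card_eq_one_iff_unique.1 h1).1
          infer_instance
        · haveI : Fact (Nat.Prime 3) := ⟨Nat.prime_three⟩
          exact isCyclic_of_prime_card h1
      letI := IsCyclic.commGroup (α := φ.range)
      exact congrArg Subtype.val (mul_comm (G := φ.range)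
        ⟨_, ⟨⟨g, hg⟩, rfl⟩⟩ ⟨_, ⟨⟨h, hh⟩, rfl⟩⟩)
    have hk : (⟨g, hg⟩ * ⟨h, hh⟩ * (⟨g, hg⟩)⁻¹ * (⟨h, hh⟩)⁻¹ : T) ∈ φ.ker := by
      rw [MonoidHom.mem_ker, map_mul, map_mul, map_mul, map_inv, map_inv, hab]
      simp
    rw [hker, Subgroup.mem_subgroupOf] at hk
    simpa using hk
  · -- an involution in the cyclic group of `x` is fixed
    obtain ⟨j, hj⟩ := (Nat.dvd_prime_pow Nat.prime_two).1 (orderOf_dvd_of_pow_eq_one (hexp x hx))
    obtain ⟨i, hi⟩ : ∃ i, j = i + 1 := by
      refine ⟨j - 1, (Nat.succ_pred_eq_of_ne_zero fun h0 => hx1 ?_).symm⟩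
      rw [← orderOf_eq_one_iff, hj.2, h0, pow_zero]
    have hz2 : (x ^ 2 ^ i) ^ 2 = 1 := by
      rw [← pow_mul, ← pow_succ, ← hi, ← hj.2, pow_orderOf_eq_one]
    have hz1 : x ^ 2 ^ i ≠ 1 := fun h => by
      have h1 := orderOf_dvd_of_pow_eq_one h
      rw [hj.2, hi] at h1
      exact absurd (Nat.le_of_dvd (by positivity) h1)
        (by rw [pow_succ]; have : 0 < 2 ^ i := by positivity
            omega)
    have hgz : g * x ^ 2 ^ i * g⁻¹ = x ^ 2 ^ i := by rw [← conj_pow, hgx]
    set z : X := ⟨x ^ 2 ^ i, P.pow_mem hx _, hz2, hz1⟩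
    have hfixz : φ ⟨g, hg⟩ z = z := Subtype.ext hgz
    suffices φ ⟨g, hg⟩ = 1 by
      have hk : (⟨g, hg⟩ : T) ∈ φ.ker := this
      rwa [hker, Subgroup.mem_subgroupOf] at hk
    set σ := φ ⟨g, hg⟩ with hσ
    have hσ3 : σ ^ 3 = 1 := by
      have h1 : orderOf (⟨σ, ⟨⟨g, hg⟩, rfl⟩⟩ : φ.range) ∣ 3 :=
        (orderOf_dvd_natCard _).trans hrange
      rw [← Subgroup.orderOf_coe] at h1
      exact orderOf_dvd_iff_pow_eq_one.1 h1
    -- a permutation of order dividing three on at most three points with a fixed point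
    by_contra hne
    haveI := Fintype.ofFinite X
    have hct : σ.support.card = 3 := by
      have ho : orderOf σ = 3 := orderOf_eq_prime hσ3 hne
      have h2 := Equiv.Perm.two_le_card_support_of_ne_one hne
      have h4 : σ.support.card ≤ 3 := (Finset.card_le_univ _).trans (by
        rw [← Nat.card_eq_fintype_card]; exact hX)
      by_contra hne3
      have h5 : σ.support.card = 2 := by omega
      have := (Equiv.Perm.card_support_eq_two.1 h5).orderOf
      omega
    have : z ∈ σ.support := by
      rw [Finset.eq_univ_of_card σ.support (le_antisymm (Finset.card_le_univ _)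
        (by rw [hct, ← Nat.card_eq_fintype_card]; exact hX))]
      exact Finset.mem_univ z
    exact (Equiv.Perm.mem_support.1 this) hfixz

end Cfsg.Agent.BlockCover
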