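import Cfsg.Agent.CharInd.BrauerPerm
import Cfsg.Agent.CharInd.Correspondence
import Cfsg.Agent.Brauer.Covering
import Cfsg.Agent.Block.Degrees
import Cfsg.Agent.BlocksChar.ClassProd
import Cfsg.Agent.CharGraph.PDegreeBasic
import Cfsg.Agent.Coprime.Generation
import Cfsg.Agent.PSolv.HallHigman

/-!
# Defect zero when no element has order `p q`
-/

set_option autoImplicit false
set_option linter.style.haveILetI false
set_option linter.unusedSectionVars false

namespace Cfsg.Agent.BlockCover

open Cfsg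
open scoped ComplexConjugate

universe u

variable {G : Type u} [Group G] [Finite G]

/-- A class of a normal subgroup fixed by an element of coprime prime order contains an element
commuting with it. -/
theorem exists_commute_in_class {N : Subgroup G} [N.Normal] {r : ℕ} [Fact r.Prime]
    (hr : ¬ r ∣ Nat.card N) {g : G} (hg : orderOf g = r) {n : N}
    (hn : IsConj n ((MulAut.conjNormal g : MulAut N) n)) :
    ∃ m : N, IsConj n m ∧ Commute g (m : G) := by
  classical
  let X := {x : N // IsConj n x}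
  have hstep : ∀ (k : ℕ) (x : N), IsConj n x →
      IsConj n ((MulAut.conjNormal (g ^ k) : MulAut N) x) := by
    intro k
    induction k with
    | zero => intro x hx; simpa using hx
    | succ k ih =>
      intro x hx
      rw [pow_succ, map_mul, MulAut.mul_apply]
      exact ih _ (hn.trans ((MulAut.conjNormal g : MulAut N).toMonoidHom.map_isConj hx))
  have hmem : ∀ u : Subgroup.zpowers g, ∀ x : N, IsConj n x →
      IsConj n ((MulAut.conjNormal (u : G) : MulAut N) x) := by
    intro u x hx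
    obtain ⟨k, hk⟩ := (isOfFinOrder_of_finite g).mem_powers_iff_mem_zpowers.2 u.2
    rw [← show g ^ k = (u : G) from hk]
    exact hstep k x hx
  letI : MulAction (Subgroup.zpowers g) X :=
    { smul := fun u x => ⟨(MulAut.conjNormal (u : G) : MulAut N) x.1, hmem u x.1 x.2⟩
      one_smul := fun x => Subtype.ext (by
        show (MulAut.conjNormal ((1 : Subgroup.zpowers g) : G) : MulAut N) x.1 = x.1
        simp)
      mul_smul := fun u v x => Subtype.ext (by
        show (MulAut.conjNormal ((u * v : Subgroup.zpowers g) : G) : MulAut N) x.1 = _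
        rw [Subgroup.coe_mul, map_mul]
        rfl) }
  have hP : IsPGroup r (Subgroup.zpowers g) :=
    IsPGroup.of_card (n := 1) (by rw [Nat.card_zpowers, hg, pow_one])
  have hX : ¬ r ∣ Nat.card X := by
    letI := Fintype.ofFinite N
    intro hd
    have h1 : Nat.card X = (Subgroup.centralizer ({n} : Set N)).index := by
      rw [Nat.card_eq_fintype_card, Fintype.card_subtype]
      convert Char.card_isConj_eq_index n
    exact hr (hd.trans (h1 ▸ Subgroup.index_dvd_card _))
  obtain ⟨x, hx⟩ := hP.nonempty_fixed_point_of_prime_not_dvd_card X hX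
  refine ⟨x.1, x.2, ?_⟩
  have h := congrArg (fun y : X => ((y.1 : N) : G)) (hx ⟨g, Subgroup.mem_zpowers g⟩)
  change ((MulAut.conjNormal g : MulAut N) x.1 : G) = (x.1 : G) at h
  rw [MulAut.conjNormal_apply] at h
  exact mul_inv_eq_iff_eq_mul.1 h

theorem zpowers_eq_of_orderOf_eq' {A : Type*} [Group A] [Finite A] [IsCyclic A] {a b : A}
    (h : orderOf a = orderOf b) : Subgroup.zpowers a = Subgroup.zpowers b := by
  classical
  haveI := Fintype.ofFinite A
  have hcard := IsCyclic.card_pow_eq_one_le (α := A) (orderOf_pos b)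
  set S : Finset A := {z : A | z ^ orderOf b = 1} with hS
  have key : ∀ c : A, orderOf c = orderOf b → (Subgroup.zpowers c : Set A) = (S : Set A) := by
    intro c hc
    refine Set.eq_of_subset_of_ncard_le ?_ ?_
    · intro z hz
      simp only [hS, Finset.coe_filter, Finset.mem_univ, true_and, Set.mem_setOf_eq]
      exact orderOf_dvd_iff_pow_eq_one.1 (hc ▸ orderOf_dvd_of_mem_zpowers hz)
    · rw [Set.ncard_coe_finset, ← Nat.card_coe_set_eq]
      exact hcard.trans (by rw [SetLike.coe_sort_coe, Nat.card_zpowers, hc])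
  exact SetLike.coe_injective ((key a h).trans (key b rfl).symm)

/-- No element of order `p q`: commuting elements of orders `p` and `q` do not exist. -/
theorem no_commute {p q : ℕ} [Fact p.Prime] [Fact q.Prime] (hpq : p ≠ q)
    (h : ∀ g : G, orderOf g ≠ p * q) {x y : G} (hx : orderOf x = p) (hy : orderOf y = q) :
    ¬ Commute x y := fun hc => h (x * y) (by
  rw [hc.orderOf_mul_eq_mul_orderOf_of_coprime
    (by rw [hx, hy]; exact (Nat.coprime_primes Fact.out Fact.out).2 hpq), hx, hy])

/-- The stabiliser index divides the degree of a character above. -/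
theorem index_stab_dvd_degree [Fintype G] (N : Subgroup G) [N.Normal] [Fintype N]
    (θ : IrrCharacter N) {χ : IrrCharacter G}
    (h0 : classInner (fun n : N => (χ : G → ℂ) n) (θ : N → ℂ) ≠ 0) :
    (CharInd.conjStab N (θ : N → ℂ)).index ∣ charDegree (χ : G → ℂ) := by
  classical
  obtain ⟨c, hc⟩ := Char.isCharacter_classInner_nat
    (CharInd.isCharacter_res N (Char.isCharacter_of_irr χ.2)) θ
  have h1 := congrFun (CharInd.clifford N χ.2 θ.2 h0) 1
  have h2 : ∀ φ ∈ CharInd.conjClass N (θ : N → ℂ), φ 1 = (charDegree (θ : N → ℂ) : ℂ) := by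
    intro φ hφ
    obtain ⟨x, rfl⟩ := (CharInd.mem_conjClass N).1 hφ
    rw [CharInd.conjChar_apply, ← (Block.irr_one_eq_charDegree θ.2).1]
    exact congrArg _ (Subtype.ext (by simp))
  simp only [OneMemClass.coe_one, Pi.smul_apply, Finset.sum_apply, smul_eq_mul, hc,
    Finset.sum_congr rfl h2, Finset.sum_const, nsmul_eq_mul,
    (Block.irr_one_eq_charDegree χ.2).1] at h1
  have h3 : charDegree (χ : G → ℂ) =
      c * ((CharInd.conjClass N (θ : N → ℂ)).card * charDegree (θ : N → ℂ)) := by exact_mod_cast h1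
  rw [← CharInd.card_conjClass, h3]
  exact Dvd.dvd.mul_left (dvd_mul_right _ _) _

/-- A character with stabiliser of `q'`-order gives a character of `q`-defect zero. -/
theorem exists_defect_zero_of_stab {q : ℕ} [Fact q.Prime] (N : Subgroup G) [N.Normal]
    (θ : IrrCharacter N) (hθ : ¬ q ∣ Nat.card (CharInd.conjStab N (θ : N → ℂ))) :
    ∃ χ : IrrCharacter G,
      (charDegree (χ : G → ℂ)).factorization q = (Nat.card G).factorization q := by
  letI := Fintype.ofFinite G
  letI := Fintype.ofFinite N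
  obtain ⟨χ, hχ⟩ := Brauer.exists_irr_over N θ
  refine ⟨χ, le_antisymm ?_ ?_⟩
  · exact (Nat.factorization_le_iff_dvd (Block.irr_one_eq_charDegree χ.2).2.1.ne'
      Nat.card_pos.ne').2 (Block.irr_one_eq_charDegree χ.2).2.2 q
  · rw [← (CharInd.conjStab N (θ : N → ℂ)).card_mul_index, Nat.factorization_mul Nat.card_pos.ne'
      Subgroup.index_ne_zero_of_finite, Finsupp.add_apply,
      Nat.factorization_eq_zero_of_not_dvd hθ, zero_add]
    exact (Nat.factorization_le_iff_dvd Subgroup.index_ne_zero_of_finite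
      (Block.irr_one_eq_charDegree χ.2).2.1.ne').2 (index_stab_dvd_degree N θ hχ) q

/-- A nontrivial normal `p`-subgroup gives a character of `q`-defect zero. -/
theorem exists_defect_zero_of_normal_pGroup {p q : ℕ} [Fact p.Prime] [Fact q.Prime] (hpq : p ≠ q)
    (h : ∀ g : G, orderOf g ≠ p * q) (N : Subgroup G) [N.Normal] (hN : IsPGroup p N)
    (hN1 : N ≠ ⊥) :
    ∃ χ : IrrCharacter G,
      (charDegree (χ : G → ℂ)).factorization q = (Nat.card G).factorization q := by
  classical
  obtain ⟨n, hn, hn1⟩ := (Subgroup.ne_bot_iff_exists_ne_one.1 hN1 |>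
    fun ⟨x, hx⟩ => (⟨x.1, x.2, fun e => hx (Subtype.ext e)⟩ : ∃ n ∈ N, n ≠ 1))
  obtain ⟨θ, hθ⟩ : ∃ θ : IrrCharacter N, (θ : N → ℂ) ⟨n, hn⟩ ≠ (θ : N → ℂ) 1 := by
    by_contra hcon
    push Not at hcon
    have := (Char.mem_normal_iff_forall_irr (⊥ : Subgroup N) ⟨n, hn⟩).2 fun χ _ => hcon χ
    exact hn1 (congrArg Subtype.val (Subgroup.mem_bot.1 this))
  refine exists_defect_zero_of_stab N θ fun hdvd => ?_
  obtain ⟨g, hg⟩ := exists_prime_orderOf_dvd_card' q hdvd
  rw [← Subgroup.orderOf_coe] at hg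
  have hqN : ¬ q ∣ Nat.card N := by
    obtain ⟨k, hk⟩ := IsPGroup.iff_card.1 hN
    rw [hk]
    exact fun hd => hpq ((Nat.prime_dvd_prime_iff_eq Fact.out Fact.out).1
      ((Fact.out : q.Prime).dvd_of_dvd_pow hd)).symm
  have hfix : ∀ C : ConjClasses N,
      ConjClasses.map (MulAut.conjNormal (g : G) : MulAut N).toMonoidHom C = C →
        C = ConjClasses.mk 1 := by
    intro C hC
    obtain ⟨a, rfl⟩ := ConjClasses.exists_rep C
    obtain ⟨m, ham, hgm⟩ := exists_commute_in_class hqN hg (n := a)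
      (ConjClasses.mk_eq_mk_iff_isConj.1 hC).symm
    rw [ConjClasses.mk_eq_mk_iff_isConj]
    suffices hm1 : m = 1 by rwa [← hm1]
    by_contra hm
    obtain ⟨k, hk⟩ := IsPGroup.iff_orderOf.1 hN m
    have hk0 : k ≠ 0 := fun e => hm (orderOf_eq_one_iff.1 (by rw [hk, e, pow_zero]))
    refine no_commute hpq h (x := (m : G) ^ p ^ (k - 1)) (y := (g : G)) ?_ hg (hgm.symm.pow_left _)
    rw [← Subgroup.orderOf_coe] at hk
    rw [orderOf_pow_of_dvd (pow_ne_zero _ (Fact.out : p.Prime).ne_zero)
        (by rw [hk]; exact pow_dvd_pow _ (by omega)), hk,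
      Nat.pow_div (by omega) (Fact.out : p.Prime).pos, show k - (k - 1) = 1 by omega, pow_one]
  set α := (MulAut.conjNormal (g : G) : MulAut N) with hα
  haveI : Subsingleton {C : ConjClasses N // ConjClasses.map α.toMonoidHom C = C} :=
    ⟨fun a b => Subtype.ext ((hfix _ a.2).trans (hfix _ b.2).symm)⟩
  have h1 : Nat.card {χ : IrrCharacter N // (χ : N → ℂ) ∘ α = (χ : N → ℂ)} ≤ 1 := by
    rw [← CharInd.brauer_perm α]
    exact Finite.card_le_one_iff_subsingleton.2 inferInstance
  haveI := Finite.card_le_one_iff_subsingleton.1 h1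
  have hθα : (θ : N → ℂ) ∘ α = (θ : N → ℂ) := by
    refine funext fun x => ?_
    have := congrFun ((CharInd.mem_conjStab N).1 g.2) x
    rw [CharInd.conjChar_apply] at this
    refine Eq.trans (congrArg (θ : N → ℂ) (Subtype.ext ?_)) this
    exact MulAut.conjNormal_apply _ _
  have htriv := Subsingleton.elim
    (⟨θ, hθα⟩ : {χ : IrrCharacter N // (χ : N → ℂ) ∘ α = (χ : N → ℂ)})
    ⟨⟨_, BlocksChar.isIrr_one⟩, rfl⟩
  apply hθ
  rw [Subtype.mk.inj htriv]

/-- A `p`-soluble group without elements of order `p q` has a defect zero character for `p` or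
for `q`. -/
theorem exists_defect_zero_of_pSolvable {p q : ℕ} [Fact p.Prime] [Fact q.Prime] (hpq : p ≠ q)
    (hpG : p ∣ Nat.card G) (hqG : q ∣ Nat.card G)
    (h : ∀ g : G, orderOf g ≠ p * q) (hsolv : IsPSolvable p G) :
    (∃ χ : IrrCharacter G,
      (charDegree (χ : G → ℂ)).factorization p = (Nat.card G).factorization p) ∨
    (∃ χ : IrrCharacter G,
      (charDegree (χ : G → ℂ)).factorization q = (Nat.card G).factorization q) := by
  classical
  have hp := (Fact.out : p.Prime)
  have hq := (Fact.out : q.Prime)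
  letI := Fintype.ofFinite G
  by_cases hO : pCore p G = ⊥
  swap
  · haveI := pCore_normal p G
    exact Or.inr (exists_defect_zero_of_normal_pGroup hpq h (pCore p G) (PSolv.isPGroup_pCore p G) hO)
  set N := pPrimeCore p G with hNdef
  haveI : N.Normal := pPrimeCore_normal p G
  have hpN : ¬ p ∣ Nat.card N :=
    hp.coprime_iff_not_dvd.1 (PSolv.coprime_card_pPrimeCore p G).symm
  haveI : (pCore p (G ⧸ N)).Normal := pCore_normal p _
  have hGN : Nontrivial (G ⧸ N) := by
    rw [← Finite.one_lt_card_iff_nontrivial]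
    have hd : p ∣ Nat.card (G ⧸ N) := by
      rw [← N.card_mul_index] at hpG
      exact (hp.dvd_mul.1 hpG).resolve_left hpN
    exact lt_of_lt_of_le hp.one_lt (Nat.le_of_dvd Nat.card_pos hd)
  have hR1 : pCore p (G ⧸ N) ≠ ⊥ :=
    PSolv.pCore_ne_bot_of_pPrimeCore_eq_bot (PSolv.isPSolvable_quotient hsolv N)
      (PSolv.pPrimeCore_quotient_eq_bot p G)
  by_cases hqN : q ∣ Nat.card N
  swap
  · right
    have hquot : ∀ x : G ⧸ N, orderOf x ≠ p * q := by
      intro x hx
      obtain ⟨g, rfl⟩ := QuotientGroup.mk'_surjective N x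
      have hd : p * q ∣ orderOf g := hx ▸ orderOf_map_dvd (QuotientGroup.mk' N) g
      refine h (g ^ (orderOf g / (p * q))) ?_
      exact orderOf_pow_orderOf_div (orderOf_pos g).ne' hd
    obtain ⟨β, hβ⟩ := exists_defect_zero_of_normal_pGroup hpq hquot (pCore p (G ⧸ N))
      (PSolv.isPGroup_pCore p _) hR1
    refine ⟨CharGraph.inflate N β, ?_⟩
    rw [CharGraph.charDegree_inflate, hβ, ← N.card_mul_index,
      Nat.factorization_mul Nat.card_pos.ne' Subgroup.index_ne_zero_of_finite, Finsupp.add_apply,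
      Nat.factorization_eq_zero_of_not_dvd hqN, zero_add]
    rfl
  left
  set R : Subgroup G := (pCore p (G ⧸ N)).comap (QuotientGroup.mk' N) with hR
  haveI : R.Normal := (inferInstance : (pCore p (G ⧸ N)).Normal).comap _
  have hNR : N ≤ R := QuotientGroup.le_comap_mk' N _
  -- a Sylow subgroup of `G` normalising one of `N`
  obtain ⟨Q⟩ : Nonempty (Sylow q N) := inferInstance
  set Q' : Subgroup G := (Q : Subgroup N).map N.subtype with hQ'
  have hfr : Subgroup.normalizer (Q' : Set G) ⊔ N = ⊤ := Sylow.normalizer_sup_eq_top Q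
  set K := Subgroup.normalizer (Q' : Set G) with hK
  obtain ⟨SK⟩ : Nonempty (Sylow p K) := inferInstance
  set S : Subgroup G := (SK : Subgroup K).map K.subtype with hS
  have hSp : IsPGroup p S := SK.isPGroup'.map _
  have hScard : Nat.card S = p ^ (Nat.card G).factorization p := by
    rw [hS, Subgroup.card_map_of_injective K.subtype_injective, SK.card_eq_multiplicity]
    congr 1
    have hd : Nat.card G ∣ Nat.card K * Nat.card N := by
      have h1 := PSolv.card_sup_dvd_of_normal K N
      rwa [hfr, Subgroup.card_top] at h1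
    refine le_antisymm ((Nat.factorization_le_iff_dvd Nat.card_pos.ne' Nat.card_pos.ne').2
      K.card_subgroup_dvd_card p) ?_
    have h2 := (Nat.factorization_le_iff_dvd Nat.card_pos.ne'
      (mul_ne_zero Nat.card_pos.ne' Nat.card_pos.ne')).2 hd p
    rwa [Nat.factorization_mul Nat.card_pos.ne' Nat.card_pos.ne', Finsupp.add_apply,
      Nat.factorization_eq_zero_of_not_dvd hpN, add_zero] at h2
  let S' : Sylow p G := Sylow.ofCard S hScard
  have hQ'q : IsPGroup q Q' := Q.isPGroup'.map _
  have hQ'1 : Q' ≠ ⊥ := by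
    rw [hQ', Ne, Subgroup.map_eq_bot_iff_of_injective _ N.subtype_injective]
    intro h1
    have := Q.dvd_card_of_dvd_card hqN
    rw [h1, Subgroup.card_bot] at this
    exact hq.not_dvd_one this
  have hS1 : Nontrivial S := by
    rw [← Finite.one_lt_card_iff_nontrivial]
    exact Nat.le_of_dvd Nat.card_pos (S'.dvd_card_of_dvd_card hpG) |>.trans_lt' hp.one_lt
  -- the only subgroup of order `p` in `S`
  haveI := hSp.center_nontrivial
  obtain ⟨z₀, hz₀⟩ : ∃ z : Subgroup.center S, orderOf z = p := by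
    apply exists_prime_orderOf_dvd_card'
    obtain ⟨k, hk⟩ := IsPGroup.iff_card.1 (hSp.to_subgroup (Subgroup.center S))
    have h1 : 1 < Nat.card (Subgroup.center S) := Finite.one_lt_card
    rw [hk] at h1 ⊢
    exact dvd_pow_self p (fun e => absurd (e ▸ h1) (by simp))
  set z : G := ((z₀ : S) : G) with hzdef
  have hz : orderOf z = p := by rw [hzdef, Subgroup.orderOf_coe, Subgroup.orderOf_coe, hz₀]
  have hzS : z ∈ S := (z₀ : S).2
  have hzc : ∀ b ∈ S, Commute z b := fun b hb =>
    (congrArg Subtype.val (Subgroup.mem_center_iff.1 z₀.2 ⟨b, hb⟩)).symm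
  have huniq : ∀ b ∈ S, orderOf b = p → b ∈ Subgroup.zpowers z := by
    intro b hbS hb
    by_contra hbz
    set A := Subgroup.zpowers z ⊔ Subgroup.zpowers b with hA
    have hAS : A ≤ S := sup_le (Subgroup.zpowers_le.2 hzS) (Subgroup.zpowers_le.2 hbS)
    have hAcomm : IsMulCommutative A := by
      have hgen : ∀ c, (c = z ∨ c = b) → A ≤ Subgroup.centralizer ({c} : Set G) := by
        intro c hc
        refine sup_le (Subgroup.zpowers_le.2 ?_) (Subgroup.zpowers_le.2 ?_) <;>
          rw [Subgroup.mem_centralizer_singleton_iff] <;> rcases hc with e | e <;> rw [e] <;>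
          first | rfl | exact (hzc b hbS).eq | exact (hzc b hbS).eq.symm
      have key : A ≤ Subgroup.centralizer (A : Set G) := by
        refine sup_le (Subgroup.zpowers_le.2 fun d hd => ?_) (Subgroup.zpowers_le.2 fun d hd => ?_)
        · exact Subgroup.mem_centralizer_singleton_iff.1 (hgen z (Or.inl rfl) hd)
        · exact Subgroup.mem_centralizer_singleton_iff.1 (hgen b (Or.inr rfl) hd)
      exact ⟨⟨fun x y => Subtype.ext (key y.2 x x.2)⟩⟩
    haveI := hAcomm
    have hnc : ¬ IsCyclic A := by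
      intro hcyc
      haveI := hcyc
      have hzA : z ∈ A := Subgroup.mem_sup_left (Subgroup.mem_zpowers z)
      have hbA : b ∈ A := Subgroup.mem_sup_right (Subgroup.mem_zpowers b)
      have e1 : Subgroup.zpowers (⟨z, hzA⟩ : A) = Subgroup.zpowers (⟨b, hbA⟩ : A) :=
        zpowers_eq_of_orderOf_eq' (by rw [Subgroup.orderOf_mk, Subgroup.orderOf_mk, hz, hb])
      have h2 : (⟨b, hbA⟩ : A) ∈ Subgroup.zpowers (⟨z, hzA⟩ : A) := e1 ▸ Subgroup.mem_zpowers _
      obtain ⟨i, hi⟩ := h2
      exact hbz ⟨i, by simpa using congrArg Subtype.val hi⟩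
    have hAn : A ≤ Subgroup.normalizer (Q' : Set G) := hAS.trans (Subgroup.map_subtype_le _)
    have hcop : (Nat.card A).Coprime (Nat.card Q') := by
      obtain ⟨i, hi⟩ := IsPGroup.iff_card.1 (hSp.to_le hAS)
      obtain ⟨j, hj⟩ := IsPGroup.iff_card.1 hQ'q
      rw [hi, hj]
      exact ((Nat.coprime_primes hp hq).2 hpq).pow i j
    have hgen := Coprime.iSup_centralizer_eq hnc hAn hcop
    apply hQ'1
    rw [← hgen]
    refine le_bot_iff.1 (iSup₂_le fun a ha => ?_)
    intro y hy
    obtain ⟨hyQ, hya⟩ := hy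
    rw [Subgroup.mem_bot]
    by_contra hy1
    obtain ⟨i, hi⟩ := IsPGroup.iff_orderOf.1 (hSp.to_le hAS) ⟨a, ha.1⟩
    obtain ⟨j, hj⟩ := IsPGroup.iff_orderOf.1 hQ'q ⟨y, hyQ⟩
    rw [Subgroup.orderOf_mk] at hi hj
    have hi0 : i ≠ 0 := fun e => ha.2 (orderOf_eq_one_iff.1 (by rw [hi, e, pow_zero]))
    have hj0 : j ≠ 0 := fun e => hy1 (orderOf_eq_one_iff.1 (by rw [hj, e, pow_zero]))
    have hc : Commute a y := (Subgroup.mem_centralizer_singleton_iff.1 hya).symm
    refine no_commute hpq h (x := a ^ (orderOf a / p)) (y := y ^ (orderOf y / q))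
      (orderOf_pow_orderOf_div (orderOf_pos a).ne' (hi ▸ dvd_pow_self p hi0))
      (orderOf_pow_orderOf_div (orderOf_pos y).ne' (hj ▸ dvd_pow_self q hj0)) (hc.pow_pow _ _)
  -- all elements of order `p` lie in `R`
  have hzR : z ∈ R := by
    have hd : p ∣ Nat.card R := by
      obtain ⟨k, hk⟩ := IsPGroup.iff_card.1 (PSolv.isPGroup_pCore p (G ⧸ N))
      rw [hR, PSolv.card_comap_mk, hk]
      refine dvd_mul_of_dvd_right (dvd_pow_self p fun e => hR1 ?_) _
      rw [← Subgroup.card_eq_one, hk, e, pow_zero]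
    obtain ⟨⟨w, hw⟩, hwo⟩ := exists_prime_orderOf_dvd_card' p hd
    rw [Subgroup.orderOf_mk] at hwo
    obtain ⟨W, hW⟩ := (IsPGroup.of_card (p := p) (n := 1)
      (show Nat.card (Subgroup.zpowers w) = p ^ 1 by rw [Nat.card_zpowers, hwo, pow_one])).exists_le_sylow
    obtain ⟨c, hc⟩ := MulAction.exists_smul_eq G W S'
    have hcS : c * w * c⁻¹ ∈ S := by
      have : c * w * c⁻¹ ∈ ((c • W : Sylow p G) : Subgroup G) := by
        rw [Sylow.coe_subgroup_smul]
        exact Subgroup.smul_mem_pointwise_smul w (MulAut.conj c) _ (hW (Subgroup.mem_zpowers w))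
      rwa [hc] at this
    have hco : orderOf (c * w * c⁻¹) = p := by
      rw [← hwo, ← MulAut.conj_apply]
      exact orderOf_injective (MulAut.conj c).toMonoidHom (MulAut.conj c).injective w
    have hcw : Subgroup.zpowers (c * w * c⁻¹) = Subgroup.zpowers z :=
      Subgroup.eq_of_le_of_card_ge (Subgroup.zpowers_le.2 (huniq _ hcS hco))
        (by rw [Nat.card_zpowers, Nat.card_zpowers, hz, hco])
    exact Subgroup.zpowers_le.2 ((inferInstance : R.Normal).conj_mem w hw c)
      (hcw ▸ Subgroup.mem_zpowers z)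
  -- every subgroup of order `p` is conjugate to `⟨z⟩` under `N`
  have hconj : ∀ g : G, orderOf g = p → ∃ n ∈ N, n * z * n⁻¹ ∈ Subgroup.zpowers g := by
    intro g hg
    obtain ⟨W, hW⟩ := (IsPGroup.of_card (p := p) (n := 1)
      (show Nat.card (Subgroup.zpowers g) = p ^ 1 by rw [Nat.card_zpowers, hg, pow_one])).exists_le_sylow
    obtain ⟨c, hc⟩ := MulAction.exists_smul_eq G W S'
    have hcS : c * g * c⁻¹ ∈ S := by
      have : c * g * c⁻¹ ∈ ((c • W : Sylow p G) : Subgroup G) := by
        rw [Sylow.coe_subgroup_smul]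
        exact Subgroup.smul_mem_pointwise_smul g (MulAut.conj c) _ (hW (Subgroup.mem_zpowers g))
      rwa [hc] at this
    have hco : orderOf (c * g * c⁻¹) = p := by
      rw [← hg, ← MulAut.conj_apply]
      exact orderOf_injective (MulAut.conj c).toMonoidHom (MulAut.conj c).injective g
    have hgR : g ∈ R := by
      have h1 : c * g * c⁻¹ ∈ R := Subgroup.zpowers_le.2 hzR (huniq _ hcS hco)
      simpa [mul_assoc] using (inferInstance : R.Normal).conj_mem _ h1 c⁻¹
    -- `S ∩ R` is a Sylow subgroup of `R` and `R = N (S ∩ R)`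
    haveI : (N.subgroupOf R).Normal := inferInstance
    obtain ⟨W', hW'⟩ := (IsPGroup.of_card (p := p) (n := 1)
      (show Nat.card (Subgroup.zpowers (⟨g, hgR⟩ : R)) = p ^ 1 by
        rw [Nat.card_zpowers, Subgroup.orderOf_mk, hg, pow_one])).exists_le_sylow
    obtain ⟨Z', hZ'⟩ := (IsPGroup.of_card (p := p) (n := 1)
      (show Nat.card (Subgroup.zpowers (⟨z, hzR⟩ : R)) = p ^ 1 by
        rw [Nat.card_zpowers, Subgroup.orderOf_mk, hz, pow_one])).exists_le_sylow
    have htop : (Z' : Subgroup R) ⊔ N.subgroupOf R = ⊤ := by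
      rw [← Subgroup.index_eq_one]
      refine Nat.eq_one_of_dvd_coprimes ?_ (Subgroup.index_dvd_of_le le_sup_left)
        (Subgroup.index_dvd_of_le le_sup_right)
      obtain ⟨k, hk⟩ := IsPGroup.iff_card.1 (PSolv.isPGroup_pCore p (G ⧸ N))
      have hidx : (N.subgroupOf R).index = p ^ k := by
        refine Nat.eq_of_mul_eq_mul_left (Nat.card_pos (α := N)) ?_
        rw [← hk, ← PSolv.card_comap_mk, ← hR, ← (N.subgroupOf R).card_mul_index,
          Nat.card_congr (Subgroup.subgroupOfEquivOfLe hNR).toEquiv]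
      rw [hidx]
      exact ((hp.coprime_iff_not_dvd.2 Z'.not_dvd_index).pow_left k).symm
    obtain ⟨r, hr⟩ := MulAction.exists_smul_eq R W' Z'
    have hr' : r ∈ (Z' : Subgroup R) ⊔ N.subgroupOf R := htop ▸ Subgroup.mem_top r
    rw [← SetLike.mem_coe, Subgroup.mul_normal] at hr'
    obtain ⟨a, ha, m, hm, hram⟩ := hr'
    have hm' : (⟨g, hgR⟩ : R) ∈ (W' : Subgroup R) := hW' (Subgroup.mem_zpowers _)
    have hmem : r * ⟨g, hgR⟩ * r⁻¹ ∈ (Z' : Subgroup R) := by
      have : r * ⟨g, hgR⟩ * r⁻¹ ∈ ((r • W' : Sylow p R) : Subgroup R) := by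
        rw [Sylow.coe_subgroup_smul]
        exact Subgroup.smul_mem_pointwise_smul _ (MulAut.conj r) _ hm'
      rwa [hr] at this
    have hmg : m * ⟨g, hgR⟩ * m⁻¹ ∈ (Z' : Subgroup R) := by
      have h1 : m * ⟨g, hgR⟩ * m⁻¹ = a⁻¹ * (r * ⟨g, hgR⟩ * r⁻¹) * a := by
        rw [← hram]; group
      rw [h1]
      exact mul_mem (mul_mem (inv_mem ha) hmem) ha
    -- move `Z'` into a Sylow subgroup of `G` to use uniqueness
    obtain ⟨V, hV⟩ := (Z'.isPGroup'.map R.subtype).exists_le_sylow
    obtain ⟨d, hd⟩ := MulAction.exists_smul_eq G V S'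
    have hput : ∀ x ∈ (Z' : Subgroup R), orderOf x = p →
        d * (x : G) * d⁻¹ ∈ Subgroup.zpowers z := by
      intro x hx hxo
      refine huniq _ ?_ ?_
      · have : d * (x : G) * d⁻¹ ∈ ((d • V : Sylow p G) : Subgroup G) := by
          rw [Sylow.coe_subgroup_smul]
          exact Subgroup.smul_mem_pointwise_smul _ (MulAut.conj d) _ (hV ⟨x, hx, rfl⟩)
        rwa [hd] at this
      · rw [← hxo, ← Subgroup.orderOf_coe, ← MulAut.conj_apply]
        exact orderOf_injective (MulAut.conj d).toMonoidHom (MulAut.conj d).injective _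
    have h1 := hput _ hmg (by
      rw [← Subgroup.orderOf_coe, ← hg]
      exact orderOf_injective (MulAut.conj (m : G)).toMonoidHom (MulAut.conj (m : G)).injective g)
    have h2 := hput ⟨z, hzR⟩ (hZ' (Subgroup.mem_zpowers _)) (by rw [Subgroup.orderOf_mk, hz])
    refine ⟨(m : G)⁻¹, inv_mem hm, ?_⟩
    set x := (m : G) * g * (m : G)⁻¹ with hx
    have hxo : orderOf (d * x * d⁻¹) = p := by
      rw [← hg, hx]
      exact orderOf_injective ((MulAut.conj d).toMonoidHom.comp (MulAut.conj (m : G)).toMonoidHom)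
        ((MulAut.conj d).injective.comp (MulAut.conj (m : G)).injective) g
    have h3 : d * z * d⁻¹ ∈ Subgroup.zpowers (d * x * d⁻¹) := by
      have e : Subgroup.zpowers (d * x * d⁻¹) = Subgroup.zpowers z :=
        Subgroup.eq_of_le_of_card_ge (Subgroup.zpowers_le.2 h1)
          (by rw [Nat.card_zpowers, Nat.card_zpowers, hz, hxo])
      rw [e]; exact h2
    obtain ⟨i, hi⟩ := h3
    refine ⟨i, ?_⟩
    change (d * x * d⁻¹) ^ i = d * z * d⁻¹ at hi
    rw [conj_zpow] at hi
    have hi' : x ^ i = z := mul_left_cancel (mul_right_cancel hi)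
    show g ^ i = _
    rw [← hi', hx, conj_zpow]
    group
  -- a character of `N` moved by `z`
  obtain ⟨θ, hθ⟩ : ∃ θ : IrrCharacter N,
      CharInd.conjChar N z (θ : N → ℂ) ≠ (θ : N → ℂ) := by
    by_contra hcon
    push Not at hcon
    have hall : ∀ n : N, ∃ m : N, IsConj n m ∧ Commute z (m : G) := fun n =>
      exists_commute_in_class hpN hz (BlocksChar.isConj_of_forall_irr_eq fun θ => by
        have := congrFun (hcon θ) n
        rw [CharInd.conjChar_apply] at this
        rw [← this]
        exact congrArg _ (Subtype.ext (MulAut.conjNormal_apply _ _).symm))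
    have hC : (Subgroup.centralizer ({z} : Set G)).subgroupOf N = ⊤ := by
      refine FGSev.eq_top_of_forall_conj_mem _ fun n => ?_
      obtain ⟨m, hnm, hzm⟩ := hall n
      obtain ⟨a, ha⟩ := isConj_iff.1 hnm
      refine ⟨a⁻¹, ?_⟩
      rw [inv_inv, ha, Subgroup.mem_subgroupOf, Subgroup.mem_centralizer_singleton_iff]
      exact hzm.symm.eq
    obtain ⟨⟨y, hy⟩, hyo⟩ := exists_prime_orderOf_dvd_card' q hqN
    rw [Subgroup.orderOf_mk] at hyo
    have hyz : (⟨y, hy⟩ : N) ∈ (Subgroup.centralizer ({z} : Set G)).subgroupOf N :=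
      hC ▸ Subgroup.mem_top _
    exact no_commute hpq h hz hyo
      (Subgroup.mem_centralizer_singleton_iff.1 (Subgroup.mem_subgroupOf.1 hyz)).symm
  refine exists_defect_zero_of_stab N θ fun hdvd => ?_
  obtain ⟨⟨g, hg⟩, hgo⟩ := exists_prime_orderOf_dvd_card' p hdvd
  rw [Subgroup.orderOf_mk] at hgo
  obtain ⟨n, hn, hnz⟩ := hconj g hgo
  have h1 : n * z * n⁻¹ ∈ CharInd.conjStab N (θ : N → ℂ) := Subgroup.zpowers_le.2 hg hnz
  have hnT := CharInd.le_conjStab N (Char.irr_isClassFunction θ.2) hn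
  have h2 : z ∈ CharInd.conjStab N (θ : N → ℂ) := by
    have := mul_mem (mul_mem (inv_mem hnT) h1) hnT
    simpa [mul_assoc] using this
  exact hθ ((CharInd.mem_conjStab N).1 h2)

end Cfsg.Agent.BlockCover
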